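import Mathlib
import Cfsg.Agent.S0144

/-!
# Piece D of CALL S2553 (helper65): a perfect subgroup of `GL₄(2)` of order dividing `576` is trivial

By Burnside's `p^a q^b` theorem (`S0144`), a group of order `2^a * 3^b` is solvable, and a perfect
solvable group is trivial.
-/

set_option autoImplicit false
open scoped commutatorElement

namespace Cfsg.Agent.Helper1

/-- A perfect solvable subgroup is trivial. -/
theorem g42_perfect_solvable_eq_bot {G : Type*} [Group G] (N : Subgroup G) (hperf : ⁅N, N⁆ = N)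
    (hsol : Group.IsSolvable N) : N = ⊥ := by
  have hc : commutator N = ⊤ := by
    apply Subgroup.map_injective N.subtype_injective
    rw [Subgroup.map_subtype_commutator, hperf, ← MonoidHom.range_eq_map, Subgroup.range_subtype]
  have hd : ∀ n, derivedSeries N n = ⊤ := by
    intro n
    induction n with
    | zero => rfl
    | succ n ih => rw [derivedSeries_succ, ih]; exact hc
  obtain ⟨n, hn⟩ := hsol.solvable
  have h1 : (⊤ : Subgroup N) = ⊥ := by rw [← hd n, hn]
  rw [eq_bot_iff]
  intro x hx
  have h2 : (⟨x, hx⟩ : N) ∈ (⊥ : Subgroup N) := h1 ▸ Subgroup.mem_top _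
  rw [Subgroup.mem_bot] at h2
  rw [Subgroup.mem_bot]
  exact congrArg Subtype.val h2

/-- A perfect subgroup of order dividing `2 ^ m * 3 ^ n` is trivial. -/
theorem g42_perfect_two_three {G : Type*} [Group G] (N : Subgroup G) [Finite N]
    (hperf : ⁅N, N⁆ = N) (m n : ℕ) (hcard : Nat.card N ∣ 2 ^ m * 3 ^ n) : N = ⊥ := by
  obtain ⟨k1, k2, h1, h2, h3⟩ := (Nat.dvd_mul).1 hcard
  obtain ⟨a, -, ha⟩ := (Nat.dvd_prime_pow Nat.prime_two).1 h1
  obtain ⟨b, -, hb⟩ := (Nat.dvd_prime_pow Nat.prime_three).1 h2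
  have hab : Nat.card N = 2 ^ a * 3 ^ b := by rw [← h3, ha, hb]
  exact g42_perfect_solvable_eq_bot N hperf
    (Cfsg.Agent.S0144.result 2 3 a b Nat.prime_two Nat.prime_three hab)

/-- PIECE D of CALL S2553: a perfect subgroup of `GL₄(2)` whose order divides `576` is trivial. -/
theorem g42_perfect23 (N : Subgroup (GL (Fin 4) (ZMod 2))) (hperf : ⁅N, N⁆ = N)
    (hcard : Nat.card N ∣ 576) : N = ⊥ := by
  haveI : Finite N := Nat.finite_of_card_ne_zero (by
    intro h0
    rw [h0] at hcard
    exact absurd (Nat.eq_zero_of_zero_dvd hcard) (by norm_num))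
  exact g42_perfect_two_three N hperf 6 2 (by norm_num; exact hcard)

end Cfsg.Agent.Helper1
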