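import Cfsg.Agent.Helper3.Burnside2
import Cfsg.Agent.Helper35.CoprimeAbelian
import Cfsg.Agent.Helper1.SZGen

set_option autoImplicit false

namespace Cfsg.Agent.Helper1

universe u

/-- Existence of Hall `p`-complements for all primes `p`. -/
def HallComplHyp (G : Type*) [Group G] : Prop :=
  ∀ p : ℕ, p.Prime → ∃ H : Subgroup G, H.index = p ^ (Nat.card G).factorization p

section

variable {G : Type*} [Group G] [Finite G]

theorem index_inf_eq_mul_of_coprime (H K : Subgroup G)
    (h : H.index.Coprime K.index) : (H ⊓ K).index = H.index * K.index := by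
  have hHK : (H ⊓ K).index ≠ 0 := Subgroup.index_ne_zero_of_finite
  apply le_antisymm (Subgroup.index_inf_le)
  apply Nat.le_of_dvd (Nat.pos_of_ne_zero hHK)
  exact Nat.Coprime.mul_dvd_of_dvd_of_dvd h (Subgroup.index_dvd_of_le inf_le_left)
    (Subgroup.index_dvd_of_le inf_le_right)

theorem factorization_card_eq_of_not_dvd_index (H : Subgroup G) (p : ℕ) (hp : ¬ p ∣ H.index) :
    (Nat.card H).factorization p = (Nat.card G).factorization p := by
  have h1 := H.card_mul_index
  rw [← h1, Nat.factorization_mul Nat.card_pos.ne' Subgroup.index_ne_zero_of_finite,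
    Finsupp.add_apply, Nat.factorization_eq_zero_of_not_dvd hp, add_zero]

theorem not_dvd_card_of_index_eq (H : Subgroup G) (p : ℕ) (hp : p.Prime)
    (h : H.index = p ^ (Nat.card G).factorization p) : ¬ p ∣ Nat.card H := by
  have h1 := H.card_mul_index
  have h2 : Nat.card H = Nat.card G / p ^ (Nat.card G).factorization p := by
    rw [← h] at *
    exact (Nat.div_eq_of_eq_mul_left (Nat.pos_of_ne_zero Subgroup.index_ne_zero_of_finite)
      h1.symm).symm
  rw [h2]; exact Nat.not_dvd_ordCompl hp Nat.card_pos.ne'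

theorem index_eq_of_pow_of_not_dvd (H : Subgroup G) (p j : ℕ) (hp : p.Prime) (h : H.index = p ^ j)
    (hc : ¬ p ∣ Nat.card H) : H.index = p ^ (Nat.card G).factorization p := by
  have h1 := H.card_mul_index
  have h2 : (Nat.card G).factorization p = j := by
    rw [← h1, Nat.factorization_mul Nat.card_pos.ne' Subgroup.index_ne_zero_of_finite,
      Finsupp.add_apply, Nat.factorization_eq_zero_of_not_dvd hc, zero_add, h,
      hp.factorization_pow, Finsupp.single_eq_same]
  rw [h2, h]

theorem hallComplHyp_subgroup (h : HallComplHyp G) (q : ℕ) (hq : q.Prime) (K : Subgroup G)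
    (hK : K.index = q ^ (Nat.card G).factorization q) : HallComplHyp K := by
  intro p hp
  by_cases hpq : p = q
  · subst hpq
    refine ⟨⊤, ?_⟩
    rw [Subgroup.index_top,
      Nat.factorization_eq_zero_of_not_dvd (not_dvd_card_of_index_eq K p hp hK), pow_zero]
  · obtain ⟨Hp, hHp⟩ := h p hp
    refine ⟨Hp.subgroupOf K, ?_⟩
    have hcop : Hp.index.Coprime K.index := by
      rw [hHp, hK]; exact Nat.Coprime.pow _ _ ((Nat.coprime_primes hp hq).mpr hpq)
    have h1 : (Hp ⊓ K).index = Hp.index * K.index := index_inf_eq_mul_of_coprime Hp K hcop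
    have h2 : Hp.relIndex K * K.index = (Hp ⊓ K).index := by
      rw [← Subgroup.inf_relIndex_right]; exact Subgroup.relIndex_mul_index inf_le_right
    have h3 : Hp.relIndex K = Hp.index :=
      Nat.eq_of_mul_eq_mul_right (Nat.pos_of_ne_zero Subgroup.index_ne_zero_of_finite)
        (h2.trans h1)
    apply index_eq_of_pow_of_not_dvd (Hp.subgroupOf K) p _ hp (h3.trans hHp)
    intro hdvd
    apply not_dvd_card_of_index_eq Hp p hp hHp
    refine hdvd.trans ?_
    rw [← Subgroup.inf_subgroupOf_right, card_subgroupOf_of_le inf_le_right]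
    exact Subgroup.card_dvd_of_le inf_le_left

theorem hallComplHyp_quotient (h : HallComplHyp G) (M : Subgroup G) [M.Normal] :
    HallComplHyp (G ⧸ M) := by
  intro p hp
  obtain ⟨Hp, hHp⟩ := h p hp
  refine ⟨Hp.map (QuotientGroup.mk' M), ?_⟩
  have hidx : (Hp.map (QuotientGroup.mk' M)).index ∣ Hp.index := by
    rw [Subgroup.index_map, MonoidHom.range_eq_top.mpr (QuotientGroup.mk'_surjective M),
      Subgroup.index_top, mul_one]
    exact Subgroup.index_dvd_of_le le_sup_left
  rw [hHp] at hidx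
  obtain ⟨j, -, hj⟩ := (Nat.dvd_prime_pow hp).mp hidx
  apply index_eq_of_pow_of_not_dvd _ p j hp hj
  intro hdvd
  exact not_dvd_card_of_index_eq Hp p hp hHp (hdvd.trans (Subgroup.card_map_dvd Hp _))

end

theorem hall_converse_aux (n : ℕ) : ∀ (G : Type u) [Group G] [Finite G], Nat.card G = n →
    HallComplHyp G → Group.IsSolvable G := by
  induction n using Nat.strong_induction_on with
  | _ n ih =>
    intro G _ _ hn h
    by_cases h1 : Nat.card G = 1
    · have : Subsingleton G := (Nat.card_eq_one_iff_unique.mp h1).1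
      infer_instance
    have hp₁ : (Nat.card G).minFac.Prime := Nat.minFac_prime h1
    set p₁ := (Nat.card G).minFac with hp₁def
    have hp₁dvd : p₁ ∣ Nat.card G := Nat.minFac_dvd _
    have hsub : ∀ q : ℕ, q.Prime → q ∣ Nat.card G → ∀ K : Subgroup G,
        K.index = q ^ (Nat.card G).factorization q → Group.IsSolvable K := by
      intro q hq hqd K hK
      have hlt : Nat.card K < n := by
        rw [← hn, ← K.card_mul_index, hK]
        have hf : (Nat.card G).factorization q ≠ 0 := by
          have := (hq.factorization_pos_of_dvd Nat.card_pos.ne' hqd)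
          omega
        have : 1 < q ^ (Nat.card G).factorization q := Nat.one_lt_pow hf hq.one_lt
        exact lt_mul_of_one_lt_right Nat.card_pos this
      exact ih _ hlt K rfl (hallComplHyp_subgroup h q hq K hK)
    obtain ⟨H₁, hH₁⟩ := h p₁ hp₁
    have hs₁ : Group.IsSolvable H₁ := hsub p₁ hp₁ hp₁dvd H₁ hH₁
    by_cases hbot : H₁ = ⊥
    · have hc : Nat.card G = p₁ ^ (Nat.card G).factorization p₁ := by
        have h2 := H₁.card_mul_index
        rw [hbot, Subgroup.card_bot, one_mul, ← hbot, hH₁] at h2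
        exact h2.symm
      have : Fact p₁.Prime := ⟨hp₁⟩
      have := (IsPGroup.of_card hc).isNilpotent
      infer_instance
    have : Nontrivial H₁ := (Subgroup.nontrivial_iff_ne_bot H₁).mpr hbot
    obtain ⟨p₂, hp₂f, P, hPn, hPp, hP0⟩ :=
      Cfsg.Agent.Helper35.exists_normal_pgroup_of_isSolvable H₁
    have hp₂ := hp₂f.out
    set N : Subgroup G := P.map H₁.subtype with hN
    have hNH : N ≤ H₁ := Subgroup.map_subtype_le P
    have hNp : IsPGroup p₂ N := hPp.map _
    have hN0 : N ≠ ⊥ := by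
      intro hN0; apply hP0
      exact (Subgroup.map_eq_bot_iff_of_injective P H₁.subtype_injective).mp hN0
    have hNnorm : H₁ ≤ Subgroup.normalizer (N : Set G) := by
      intro g hg
      rw [Subgroup.mem_set_normalizer_iff]
      intro x
      constructor
      · intro hx
        obtain ⟨y, hy, rfl⟩ := Subgroup.mem_map.mp hx
        exact Subgroup.mem_map.mpr ⟨_, hPn.conj_mem y hy ⟨g, hg⟩, by simp⟩
      · intro hx
        obtain ⟨y, hy, hyx⟩ := Subgroup.mem_map.mp hx
        have := hPn.conj_mem y hy ⟨g, hg⟩⁻¹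
        refine Subgroup.mem_map.mpr ⟨_, this, ?_⟩
        simp only [Subgroup.subtype_apply, Subgroup.coe_mul, Subgroup.coe_inv, inv_inv] at hyx ⊢
        rw [hyx]; group
    have hp₂H : p₂ ∣ Nat.card H₁ := by
      obtain ⟨k, hk⟩ := IsPGroup.iff_card.mp hNp
      have hk0 : k ≠ 0 := by
        rintro rfl
        apply hN0
        rw [← Subgroup.card_eq_one, hk, pow_zero]
      exact (dvd_pow_self p₂ hk0).trans (hk ▸ Subgroup.card_dvd_of_le hNH)
    have hp₂₁ : p₂ ≠ p₁ := by
      intro heq
      exact not_dvd_card_of_index_eq H₁ _ hp₁ hH₁ (heq ▸ hp₂H)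
    by_cases h3 : ∃ p₃ : ℕ, p₃.Prime ∧ p₃ ∣ Nat.card G ∧ p₃ ≠ p₁ ∧ p₃ ≠ p₂
    · obtain ⟨p₃, hp₃, hp₃G, hp₃₁, hp₃₂⟩ := h3
      obtain ⟨H₃, hH₃⟩ := h p₃ hp₃
      have hs₃ : Group.IsSolvable H₃ := hsub p₃ hp₃ hp₃G H₃ hH₃
      have hcop13 : H₁.index.Coprime H₃.index := by
        rw [hH₁, hH₃]
        exact Nat.Coprime.pow _ _ ((Nat.coprime_primes hp₁ hp₃).mpr (Ne.symm hp₃₁))
      have hD : (H₁ ⊓ H₃).index = H₁.index * H₃.index := index_inf_eq_mul_of_coprime H₁ H₃ hcop13
      have hp₂1 : ¬ p₂ ∣ H₁.index := by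
        rw [hH₁]; intro hd
        exact hp₂₁ ((Nat.prime_dvd_prime_iff_eq hp₂ hp₁).mp (hp₂.dvd_of_dvd_pow hd))
      have hp₂D : ¬ p₂ ∣ (H₁ ⊓ H₃).index := by
        rw [hD]
        intro hd
        rcases (Nat.Prime.dvd_mul hp₂).mp hd with hd | hd
        · exact hp₂1 hd
        · rw [hH₃] at hd
          exact hp₃₂ ((Nat.prime_dvd_prime_iff_eq hp₂ hp₃).mp (hp₂.dvd_of_dvd_pow hd)).symm
      obtain ⟨T, hT⟩ := Cfsg.Agent.Helper35.sylowSet_nonempty (p := p₂) (H₁ ⊓ H₃)
      have hT' : T ∈ Cfsg.Agent.Helper35.sylowSet p₂ H₁ := by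
        refine ⟨hT.1.trans inf_le_left, ?_⟩
        rw [hT.2, factorization_card_eq_of_not_dvd_index _ p₂ hp₂D,
          factorization_card_eq_of_not_dvd_index _ p₂ hp₂1]
      have hNT : N ≤ T :=
        Cfsg.Agent.Helper35.le_of_mem_sylowSet_of_le_normalizer hT' hNH hNp hNnorm
      have hNH₃ : N ≤ H₃ := hNT.trans (hT.1.trans inf_le_right)
      have hrel : H₁.relIndex H₃ = H₁.relIndex ⊤ := by
        rw [Subgroup.relIndex_top_right]
        have h2 : H₁.relIndex H₃ * H₃.index = (H₁ ⊓ H₃).index := by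
          rw [← Subgroup.inf_relIndex_right]; exact Subgroup.relIndex_mul_index inf_le_right
        rw [hD] at h2
        exact Nat.eq_of_mul_eq_mul_right (Nat.pos_of_ne_zero Subgroup.index_ne_zero_of_finite) h2
      have hprod : ∀ g : G, ∃ a ∈ H₃, ∃ b ∈ H₁, g = a * b := fun g =>
        Cfsg.Agent.Helper35.exists_mul_of_relIndex_eq (H := H₃) (K := ⊤) (C := H₁) le_top hrel
          (Subgroup.mem_top g)
      set M : Subgroup G := Subgroup.normalClosure (N : Set G) with hM
      have hMH₃ : M ≤ H₃ := by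
        rw [hM, Subgroup.normalClosure, Subgroup.closure_le]
        intro x hx
        obtain ⟨a, ha, hax⟩ := Group.mem_conjugatesOfSet_iff.mp hx
        obtain ⟨c, hc⟩ := isConj_iff.mp hax
        obtain ⟨u, hu, v, hv, rfl⟩ := hprod c
        have h4 : v * a * v⁻¹ ∈ N := (Subgroup.mem_set_normalizer_iff.mp (hNnorm hv) a).mp ha
        have h5 : x = u * (v * a * v⁻¹) * u⁻¹ := by rw [← hc]; group
        rw [h5]; exact H₃.mul_mem (H₃.mul_mem hu (hNH₃ h4)) (H₃.inv_mem hu)
      have hM0 : M ≠ ⊥ := fun hM0 => hN0 (le_bot_iff.mp (hM0 ▸ Subgroup.le_normalClosure))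
      have hMs : Group.IsSolvable M := isSolvable_of_le hMH₃
      have hQs : Group.IsSolvable (G ⧸ M) :=
        ih _ (hn ▸ card_quotient_lt M hM0) (G ⧸ M) rfl (hallComplHyp_quotient h M)
      exact Group.isSolvable_of_ker_le_range M.subtype (QuotientGroup.mk' M) (by simp)
    · push Not at h3
      have hH₁card : Nat.card H₁ = p₂ ^ (Nat.card H₁).primeFactorsList.length := by
        apply Nat.eq_prime_pow_of_unique_prime_dvd Nat.card_pos.ne'
        intro d hd hdvd
        by_contra hne
        have hd1 : d ≠ p₁ := by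
          intro heq
          exact not_dvd_card_of_index_eq H₁ _ hp₁ hH₁ (heq ▸ hdvd)
        exact hne (h3 d hd (hdvd.trans (Subgroup.card_subgroup_dvd_card H₁)) hd1)
      have hc : Nat.card G = p₂ ^ (Nat.card H₁).primeFactorsList.length *
          p₁ ^ (Nat.card G).factorization p₁ := by
        have h2 := H₁.card_mul_index
        rw [hH₁] at h2
        rw [← hH₁card]; exact h2.symm
      exact Cfsg.Agent.Helper3.isSolvable_of_card_eq p₂ p₁ _ _ hp₂ hp₁ hc

end Cfsg.Agent.Helper1
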