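import Mathlib

set_option autoImplicit false

/-! CALL LM (helper21, row S4067) piece XO, by helper1. -/

namespace Cfsg.Agent.Helper1.LM

open scoped commutatorElement

theorem lmxo_pow_mul {G : Type*} [Group G] (g h c : G) (hc : h * g = c * g * h)
    (hcc : ∀ y : G, Commute c y) : ∀ n : ℕ, (g * h) ^ n = g ^ n * h ^ n * c ^ (n.choose 2) := by
  have h1 : ∀ n : ℕ, h ^ n * g = c ^ n * g * h ^ n := by
    intro n
    induction n with
    | zero => simp
    | succ n ih =>
      calc h ^ (n + 1) * g = h * (h ^ n * g) := by rw [pow_succ', mul_assoc]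
        _ = h * (c ^ n * g * h ^ n) := by rw [ih]
        _ = c ^ n * (h * g) * h ^ n := by
            rw [← mul_assoc, ← mul_assoc, ← ((hcc h).pow_left n).eq, mul_assoc (c ^ n) h g]
        _ = c ^ n * (c * g * h) * h ^ n := by rw [hc]
        _ = c ^ (n + 1) * g * h ^ (n + 1) := by rw [pow_succ, pow_succ']; simp only [mul_assoc]
  intro n
  induction n with
  | zero => simp
  | succ n ih =>
    have e : (n + 1).choose 2 = n + n.choose 2 := by
      rw [Nat.choose_succ_succ, Nat.choose_one_right]
    have hC : ∀ y : G, c ^ n * y = y * c ^ n := fun y => ((hcc y).pow_left n).eq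
    calc (g * h) ^ (n + 1) = (g * h) ^ n * (g * h) := pow_succ _ _
      _ = g ^ n * h ^ n * c ^ (n.choose 2) * (g * h) := by rw [ih]
      _ = g ^ n * (h ^ n * g) * h * c ^ (n.choose 2) := by
          rw [mul_assoc (g ^ n * h ^ n), ((hcc (g * h)).pow_left _).eq]; simp only [mul_assoc]
      _ = g ^ n * (c ^ n * g * h ^ n) * h * c ^ (n.choose 2) := by rw [h1]
      _ = g ^ n * (g * h ^ n * c ^ n) * h * c ^ (n.choose 2) := by
          rw [mul_assoc (c ^ n) g (h ^ n), hC (g * h ^ n)]
      _ = g ^ n * g * h ^ n * (c ^ n * h) * c ^ (n.choose 2) := by simp only [mul_assoc]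
      _ = g ^ n * g * h ^ n * (h * c ^ n) * c ^ (n.choose 2) := by rw [hC h]
      _ = g ^ (n + 1) * h ^ (n + 1) * c ^ ((n + 1).choose 2) := by
          rw [e, pow_add c, pow_succ g n, pow_succ h n]; simp only [mul_assoc]

theorem lm_xo {G : Type*} [Group G] [Finite G] (hZ : commutator G ≤ Subgroup.center G)
    (hc : Nat.card (commutator G) = (Nat.card G).minFac) (hna : ¬ IsMulCommutative G)
    (hodd : (Nat.card G).minFac ≠ 2) :
    (∃ c : G, c ∈ Subgroup.center G ∧ orderOf c = (Nat.card G).minFac ∧ c ∉ commutator G) ∨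
      (∃ x : G, x ∉ Subgroup.center G ∧ x ^ (Nat.card G).minFac = 1) := by
  classical
  by_cases hex : ∃ x : G, x ∉ Subgroup.center G ∧ x ^ (Nat.card G).minFac = 1
  · exact Or.inr hex
  left
  have hex' : ∀ x : G, x ^ (Nat.card G).minFac = 1 → x ∈ Subgroup.center G := fun x hx => by
    by_contra h; exact hex ⟨x, h, hx⟩
  have hcard1 : Nat.card G ≠ 1 := by
    intro h1
    apply hna
    have : Subsingleton G := (Nat.card_eq_one_iff_unique.mp h1).1
    exact ⟨⟨fun a b => by rw [Subsingleton.elim a b]⟩⟩
  have hpp : (Nat.card G).minFac.Prime := Nat.minFac_prime hcard1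
  have : Fact (Nat.card G).minFac.Prime := ⟨hpp⟩
  have hcomm_mem : ∀ a b : G, ⁅a, b⁆ ∈ commutator G := fun a b => by
    rw [commutator_def]
    exact Subgroup.commutator_mem_commutator (Subgroup.mem_top a) (Subgroup.mem_top b)
  have hcomm_pow : ∀ a b : G, ⁅a, b⁆ ^ (Nat.card G).minFac = 1 := by
    intro a b
    have h1 := Subgroup.orderOf_dvd_natCard (commutator G) (hcomm_mem a b)
    rw [hc] at h1
    exact orderOf_dvd_iff_pow_eq_one.mp h1
  have hcen : ∀ a b y : G, Commute ⁅a, b⁆ y := fun a b y =>
    (Subgroup.mem_center_iff.mp (hZ (hcomm_mem a b)) y).symm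
  have hpow_mul : ∀ g h : G, (g * h) ^ (Nat.card G).minFac
      = g ^ (Nat.card G).minFac * h ^ (Nat.card G).minFac := by
    intro g h
    have h0 : h * g = ⁅h, g⁆ * g * h := by rw [commutatorElement_def]; group
    have h1 := lmxo_pow_mul g h ⁅h, g⁆ h0 (hcen h g) (Nat.card G).minFac
    have hdvd : (Nat.card G).minFac ∣ (Nat.card G).minFac.choose 2 :=
      hpp.dvd_choose_self (by norm_num) (lt_of_le_of_ne hpp.two_le (Ne.symm hodd))
    obtain ⟨k, hk⟩ := hdvd
    rw [h1, hk, pow_mul, hcomm_pow, one_pow, mul_one]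
  let φ : G →* G :=
    { toFun := fun g => g ^ (Nat.card G).minFac
      map_one' := one_pow _
      map_mul' := hpow_mul }
  have hrange : φ.range ≤ Subgroup.center G := by
    rintro _ ⟨g, rfl⟩
    show g ^ (Nat.card G).minFac ∈ Subgroup.center G
    rw [Subgroup.mem_center_iff]
    intro y
    have hs : SemiconjBy y g (⁅y, g⁆ * g) := by
      show y * g = ⁅y, g⁆ * g * y
      rw [commutatorElement_def]; group
    have h2 := (hs.pow_right (Nat.card G).minFac).eq
    rw [(hcen y g g).mul_pow, hcomm_pow, one_mul] at h2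
    exact h2
  have hker_le : φ.ker ≤ Subgroup.center G := fun x hx => hex' x (by
    have : φ x = 1 := MonoidHom.mem_ker.mp hx
    exact this)
  have hidx : (Nat.card G).minFac < (Subgroup.center G).index := by
    have hne1 : (Subgroup.center G).index ≠ 1 := by
      intro h1
      rw [Subgroup.index_eq_one] at h1
      apply hna
      refine ⟨⟨fun a b => ?_⟩⟩
      have : b ∈ Subgroup.center G := h1 ▸ Subgroup.mem_top b
      exact (Subgroup.mem_center_iff.mp this a)
    have hne0 : (Subgroup.center G).index ≠ 0 := Subgroup.index_ne_zero_of_finite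
    have hge : (Nat.card G).minFac ≤ (Subgroup.center G).index :=
      Nat.minFac_le_of_dvd (by omega) (Subgroup.index_dvd_card _)
    have hnep : (Subgroup.center G).index ≠ (Nat.card G).minFac := by
      intro hip
      apply hna
      have hcardq : Nat.card (G ⧸ Subgroup.center G) = (Nat.card G).minFac := by
        rw [← Subgroup.index_eq_card]; exact hip
      have : IsCyclic (G ⧸ Subgroup.center G) := isCyclic_of_prime_card hcardq
      exact MonoidHom.isMulCommutative_of_isCyclic_of_ker_le_center
        (QuotientGroup.mk' (Subgroup.center G)) (by rw [QuotientGroup.ker_mk'])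
    omega
  have hcardker : (Subgroup.center G).index ≤ Nat.card φ.ker := by
    have h1 : Nat.card φ.ker * Nat.card φ.range = Nat.card G := by
      rw [← Subgroup.index_ker]; exact Subgroup.card_mul_index _
    have h2 : Nat.card (Subgroup.center G) * (Subgroup.center G).index = Nat.card G :=
      Subgroup.card_mul_index _
    have h3 : Nat.card φ.range ≤ Nat.card (Subgroup.center G) := Subgroup.card_le_of_le hrange
    by_contra hlt
    rw [not_le] at hlt
    have h4 : Nat.card φ.ker * Nat.card φ.range
        < Nat.card (Subgroup.center G) * (Subgroup.center G).index := by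
      calc Nat.card φ.ker * Nat.card φ.range
          ≤ Nat.card φ.ker * Nat.card (Subgroup.center G) := Nat.mul_le_mul_left _ h3
        _ < (Subgroup.center G).index * Nat.card (Subgroup.center G) :=
            Nat.mul_lt_mul_of_pos_right hlt Nat.card_pos
        _ = _ := mul_comm _ _
    rw [h1, h2] at h4
    exact lt_irrefl _ h4
  have hnle : ¬ (φ.ker ≤ commutator G) := by
    intro hle
    have h5 := Subgroup.card_le_of_le hle
    omega
  obtain ⟨c, hcker, hcn⟩ := SetLike.not_le_iff_exists.mp hnle
  have hcp : c ^ (Nat.card G).minFac = 1 := MonoidHom.mem_ker.mp hcker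
  refine ⟨c, hex' c hcp, ?_, hcn⟩
  have hc1 : c ≠ 1 := fun h => hcn (h ▸ Subgroup.one_mem _)
  exact orderOf_eq_prime hcp hc1

end Cfsg.Agent.Helper1.LM
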